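import Cfsg.Agent.Lib.Helper18.ChevOrder
import Cfsg.Agent.Lib.Helper18.ChevCardHData
import Cfsg.Agent.Lib.Helper36.ChevPoin

/-!
# Order formulas: assembly

`|G| = q^N |H| Σ_w q^{l(w)}`, `d |H| = (q-1)^l`, `Σ_w q^{l(w)} = Π_d (1 + q + … + q^(d-1))`.
-/

set_option autoImplicit false

namespace Cfsg.Agent.Lib.Helper18

open Cfsg.Lie Finset Cfsg.Agent.Lib.Helper36

variable {D : ChevalleyDatum}

lemma closure_reflPerm_eq (hT : Tab D) :
    Subgroup.closure (Set.range (reflPerm hT)) = weylPerm hT := by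
  unfold weylPerm
  congr 1
  ext s
  constructor
  · rintro ⟨i, rfl⟩
    refine ⟨i, i.2, ?_⟩
    ext r
    rw [reflPerm_apply, sPerm_apply hT i.2]
  · rintro ⟨k, hk, rfl⟩
    refine ⟨⟨k, hk⟩, ?_⟩
    ext r
    rw [reflPerm_apply, sPerm_apply hT hk]

lemma inv_card_eq_len (hT : Tab D) (π : Equiv.Perm (Fin D.nroots)) :
    (Finset.univ.filter fun r : Fin D.nroots => D.IsPosRoot r ∧ ¬ D.IsPosRoot (π r)).card
      = len D π := by
  unfold len
  congr 1
  apply Finset.filter_congr
  intro r _
  rw [hT.pos_iff _ (π r).2, hT.neg_iff _ (π r).2, not_le]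

/-- `(q - 1) ^ l * Π_d (1 + … + q^(d-1)) = Π_d (q^d - 1)` for a list of `l` degrees. -/
lemma geom_prod (q : ℕ) (degs : List ℕ) :
    (q - 1) ^ degs.length * (degs.map fun d => ∑ i ∈ range d, q ^ i).prod
      = (degs.map fun d => q ^ d - 1).prod := by
  induction degs with
  | nil => simp
  | cons d L ih =>
    rw [List.length_cons, List.map_cons, List.prod_cons, List.map_cons, List.prod_cons, ← ih,
      pow_succ]
    have h : (q - 1) * ∑ i ∈ range d, q ^ i = q ^ d - 1 := by
      rcases Nat.eq_zero_or_pos q with rfl | hq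
      · rcases Nat.eq_zero_or_pos d with rfl | hd
        · simp
        · simp [hd.ne']
      · have h1 := geom_sum_mul_add (q - 1) d
        have h0 : q - 1 + 1 = q := by omega
        rw [h0] at h1
        rw [← h1, Nat.add_sub_cancel, mul_comm]
    rw [← h]
    ring

open Classical in
/-- general assembly. -/
theorem card_group_formula {F : Type*} [Field F] [Fintype F]
    (hD : D ∈ [chevG2, chevB2, chevD4, chevF4, chevE6, chevE7, chevE8])
    (c : ℕ) (degs : List ℕ) (hl : degs.length = D.rank)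
    (hH : c * Nat.card (D.diagonalSubgroup F) = (Fintype.card F - 1) ^ D.rank)
    (hP : ∑ w ∈ univ.filter (fun w => w ∈ weylPerm (tab_of_mem hD)), Fintype.card F ^ len D w =
      (degs.map fun d => ∑ i ∈ range d, Fintype.card F ^ i).prod) :
    c * Nat.card ↥(D.group F) = Fintype.card F ^ (D.nroots / 2) *
      (degs.map fun d => Fintype.card F ^ d - 1).prod := by
  rw [card_group_of_mem hD, closure_reflPerm_eq]
  simp only [inv_card_eq_len (tab_of_mem hD)]
  have h2 : (∑ π ∈ Finset.univ.filter (fun π : Equiv.Perm (Fin D.nroots) =>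
        π ∈ weylPerm (tab_of_mem hD)), Fintype.card F ^ len D π) =
      (degs.map fun d => ∑ i ∈ range d, Fintype.card F ^ i).prod := by
    rw [← hP]
  rw [h2, ← geom_prod, hl, ← hH]
  ring

end Cfsg.Agent.Lib.Helper18
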